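import Mathlib
import Cfsg.Agent.Lib.Hall.TwoClassSizes

/-!
Groups whose class sizes are `1`, `m` and `m * n` with `m`, `n` coprime: basic facts.
-/

set_option autoImplicit false

namespace Cfsg.Agent.Lib.ClassOMN

open Subgroup

universe u

variable {G : Type u} [Group G]

/-- The centralizer of one element. -/
abbrev cl (x : G) : Subgroup G := centralizer ({x} : Set G)

/-- The size of the conjugacy class. -/
noncomputable abbrev idx (x : G) : ℕ := (cl x).index

/-- The order of the centralizer modulo the center. -/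
noncomputable abbrev kk (x : G) : ℕ := (center G).relIndex (cl x)

/-- Conjugate of a subgroup. -/
abbrev cj (g : G) (H : Subgroup G) : Subgroup G := H.map (MulAut.conj g).toMonoidHom

/-- An element of `r`-power order. -/
def IsEl (r : ℕ) (x : G) : Prop := ∃ k, orderOf x ∣ r ^ k

/-- The class sizes are exactly `1`, `m`, `m * n`. -/
structure Hyp (G : Type u) [Group G] (m n : ℕ) : Prop where
  hm : 1 < m
  hn : 1 < n
  hcop : m.Coprime n
  range : Set.range (fun x : G => (cl x).index) = ({1, m, m * n} : Set ℕ)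

theorem mem_cl {x y : G} : y ∈ cl x ↔ y * x = x * y := mem_centralizer_singleton_iff

theorem self_mem_cl (x : G) : x ∈ cl x := mem_cl.2 rfl

theorem mem_cl_comm {x y : G} (h : y ∈ cl x) : x ∈ cl y := mem_cl.2 (mem_cl.1 h).symm

theorem center_le_cl (x : G) : center G ≤ cl x := fun _ hc => mem_cl.2 (mem_center_iff.1 hc x).symm

theorem cl_eq_top {x : G} (h : x ∈ center G) : cl x = ⊤ :=
  eq_top_iff.2 fun g _ => mem_cl.2 (mem_center_iff.1 h g)

theorem mem_center_of_cl {x : G} (h : cl x = ⊤) : x ∈ center G :=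
  mem_center_iff.2 fun g => mem_cl.1 (h ▸ mem_top g)

theorem idx_eq_one_iff {x : G} : idx x = 1 ↔ x ∈ center G :=
  ⟨fun h => mem_center_of_cl (index_eq_one.1 h), fun h => index_eq_one.2 (cl_eq_top h)⟩

theorem cl_le_of_mem_zpowers {x y : G} (h : y ∈ zpowers x) : cl x ≤ cl y := fun g hg => by
  obtain ⟨k, rfl⟩ := mem_zpowers_iff.1 h
  exact mem_cl.2 (Commute.zpow_right (mem_cl.1 hg : Commute g x) k)

theorem mem_cl_of_mem_zpowers {x y z : G} (hy : y ∈ zpowers x) (hz : z ∈ zpowers x) : y ∈ cl z :=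
  cl_le_of_mem_zpowers hz (mem_cl_comm (cl_le_of_mem_zpowers hy (self_mem_cl x)))

theorem mem_cj {g x : G} {H : Subgroup G} : x ∈ cj g H ↔ g⁻¹ * x * g ∈ H := by
  rw [cj, mem_map]
  constructor
  · rintro ⟨h, hh, rfl⟩
    simpa [MulAut.conj_apply, mul_assoc] using hh
  · exact fun h => ⟨_, h, by simp [MulAut.conj_apply, mul_assoc]⟩

theorem cj_one (H : Subgroup G) : cj 1 H = H := by
  ext x; simp [mem_cj]

theorem cj_cj (g h : G) (H : Subgroup G) : cj g (cj h H) = cj (g * h) H := by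
  ext x; simp [mem_cj, mul_assoc]

theorem cj_inv_cj (g : G) (H : Subgroup G) : cj g⁻¹ (cj g H) = H := by
  rw [cj_cj, inv_mul_cancel, cj_one]

theorem cj_mono {g : G} {H K : Subgroup G} (h : H ≤ K) : cj g H ≤ cj g K := map_mono h

theorem le_cj_iff {g : G} {H K : Subgroup G} : H ≤ cj g K ↔ cj g⁻¹ H ≤ K :=
  ⟨fun h => by simpa [cj_inv_cj] using cj_mono (g := g⁻¹) h,
   fun h => by simpa [cj_cj, cj_one] using cj_mono (g := g) h⟩

theorem cl_cj (g x : G) : cl (g * x * g⁻¹) = cj g (cl x) := by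
  ext y
  rw [mem_cj, mem_cl, mem_cl]
  constructor <;> intro h
  · calc g⁻¹ * y * g * x = g⁻¹ * (y * (g * x * g⁻¹)) * g := by group
      _ = g⁻¹ * (g * x * g⁻¹ * y) * g := by rw [h]
      _ = _ := by group
  · calc y * (g * x * g⁻¹) = g * (g⁻¹ * y * g * x) * g⁻¹ := by group
      _ = g * (x * (g⁻¹ * y * g)) * g⁻¹ := by rw [h]
      _ = _ := by group

theorem cj_index (g : G) (H : Subgroup G) : (cj g H).index = H.index :=
  index_map_of_bijective (MulEquiv.bijective _) H

theorem cj_center (g : G) : cj g (center G) = center G := by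
  ext x; rw [mem_cj]
  constructor
  · intro h
    have e := mem_center_iff.1 h g
    have : x = g⁻¹ * x * g := mul_left_cancel (a := g⁻¹) (by
      calc g⁻¹ * x = g⁻¹ * (g * (g⁻¹ * x * g)) * g⁻¹ := by group
        _ = g⁻¹ * ((g⁻¹ * x * g) * g) * g⁻¹ := by rw [e]
        _ = _ := by group)
    exact this ▸ h
  · intro h
    rw [mul_assoc, ← mem_center_iff.1 h g]
    simpa using h

theorem conj_mem_center_iff {g x : G} : g * x * g⁻¹ ∈ center G ↔ x ∈ center G := by
  constructor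
  · intro h
    have : x ∈ cj g⁻¹ (center G) := mem_cj.2 (by simpa using h)
    rwa [cj_center] at this
  · intro h
    have : g * x * g⁻¹ ∈ cj g (center G) := mem_cj.2 (by simpa [mul_assoc] using h)
    rwa [cj_center] at this

theorem idx_cj (g x : G) : idx (g * x * g⁻¹) = idx x := by
  rw [idx, cl_cj, cj_index]

theorem orderOf_cj (g x : G) : orderOf (g * x * g⁻¹) = orderOf x :=
  (MulAut.conj g).orderOf_eq x

theorem IsEl.cj {r : ℕ} {x : G} (h : IsEl r x) (g : G) : IsEl r (g * x * g⁻¹) := by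
  rwa [IsEl, orderOf_cj]

theorem IsEl.coprime {r : ℕ} (hr : r.Prime) {v w : G} (hv : IsEl r v) (hw : ¬ r ∣ orderOf w) :
    (orderOf v).Coprime (orderOf w) := by
  obtain ⟨k, hk⟩ := hv
  exact ((hr.coprime_iff_not_dvd.2 hw).pow_left k).coprime_dvd_left hk

theorem IsEl.not_dvd {r s : ℕ} (hr : r.Prime) (hs : s.Prime) (hne : r ≠ s) {v : G} (hv : IsEl r v) :
    ¬ s ∣ orderOf v := by
  obtain ⟨k, hk⟩ := hv
  exact fun h => hne ((Nat.prime_dvd_prime_iff_eq hs hr).1 (hs.dvd_of_dvd_pow (h.trans hk))).symm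

theorem IsEl.of_mem_pGroup {r : ℕ} [Fact r.Prime] {R : Subgroup G} (hR : IsPGroup r R) {x : G}
    (hx : x ∈ R) : IsEl r x := by
  obtain ⟨k, hk⟩ := IsPGroup.iff_orderOf.1 hR ⟨x, hx⟩
  exact ⟨k, (Subgroup.orderOf_mk x hx ▸ hk).dvd⟩

theorem IsEl.isPGroup {r : ℕ} [Fact r.Prime] {x : G} (h : IsEl r x) : IsPGroup r (zpowers x) := by
  obtain ⟨k, hk⟩ := h
  obtain ⟨j, -, hj⟩ := (Nat.dvd_prime_pow Fact.out).1 hk
  exact IsPGroup.of_card (n := j) (by rw [Nat.card_zpowers, hj])

theorem zpow_mem_of_coprime {H : Subgroup G} {c : G} {a b : ℕ} (ha : c ^ a ∈ H) (hb : c ^ b ∈ H)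
    (hab : a.Coprime b) : c ∈ H := by
  have e := Nat.gcd_eq_gcd_ab a b
  rw [hab.gcd_eq_one] at e
  have : c = (c ^ a) ^ Nat.gcdA a b * (c ^ b) ^ Nat.gcdB a b := by
    rw [← zpow_natCast, ← zpow_natCast, ← zpow_mul, ← zpow_mul, ← zpow_add, ← e]
    simp
  rw [this]
  exact mul_mem (zpow_mem ha _) (zpow_mem hb _)

/-- Both factors of a commuting product of coprime orders are powers of the product. -/
theorem mem_zpowers_mul {x y : G} (hc : Commute x y) (hco : (orderOf x).Coprime (orderOf y)) :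
    x ∈ zpowers (x * y) := by
  have h1 : x ^ orderOf y ∈ zpowers (x * y) :=
    ⟨orderOf y, by simp [zpow_natCast, hc.mul_pow, pow_orderOf_eq_one]⟩
  have h2 : x ^ orderOf x ∈ zpowers (x * y) := by rw [pow_orderOf_eq_one]; exact one_mem _
  exact zpow_mem_of_coprime h2 h1 hco

theorem cl_mul_le {x y : G} (hc : Commute x y) (hco : (orderOf x).Coprime (orderOf y)) :
    cl (x * y) ≤ cl x ⊓ cl y :=
  le_inf (cl_le_of_mem_zpowers (mem_zpowers_mul hc hco))
    (cl_le_of_mem_zpowers (by rw [hc.eq]; exact mem_zpowers_mul hc.symm hco.symm))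

theorem inf_le_cl_mul (x y : G) : cl x ⊓ cl y ≤ cl (x * y) := fun g hg =>
  mem_cl.2 (Commute.mul_right (mem_cl.1 hg.1 : Commute g x) (mem_cl.1 hg.2 : Commute g y))

section Fin

variable [Finite G]

theorem exists_decomp (x : G) {r : ℕ} (hr : r.Prime) :
    ∃ v ∈ zpowers x, ∃ w ∈ zpowers x, x = v * w ∧ IsEl r v ∧ ¬ r ∣ orderOf w := by
  obtain ⟨k, b, hb, hkb⟩ := Nat.exists_eq_pow_mul_and_not_dvd (orderOf_pos x).ne' r hr.ne_one
  have hc : Nat.gcd (r ^ k) b = 1 := Nat.Coprime.pow_left k (hr.coprime_iff_not_dvd.2 hb)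
  have he := Nat.gcd_eq_gcd_ab (r ^ k) b
  rw [hc] at he
  refine ⟨x ^ ((b : ℤ) * Nat.gcdB (r ^ k) b), zpow_mem (mem_zpowers x) _,
    x ^ (((r ^ k : ℕ) : ℤ) * Nat.gcdA (r ^ k) b), zpow_mem (mem_zpowers x) _, ?_, ⟨k, ?_⟩, ?_⟩
  · rw [← zpow_add, add_comm, ← he, Nat.cast_one, zpow_one]
  · refine orderOf_dvd_of_pow_eq_one ?_
    rw [← zpow_natCast, ← zpow_mul, ← orderOf_dvd_iff_zpow_eq_one, hkb]
    exact ⟨Nat.gcdB (r ^ k) b, by push_cast; ring⟩
  · refine fun hd => hb (hd.trans (orderOf_dvd_of_pow_eq_one ?_))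
    rw [← zpow_natCast, ← zpow_mul, ← orderOf_dvd_iff_zpow_eq_one, hkb]
    exact ⟨Nat.gcdA (r ^ k) b, by push_cast; ring⟩

/-- A noncentral element has a noncentral primary power. -/
theorem exists_primary {x : G} (hx : x ∉ center G) :
    ∃ s, s.Prime ∧ s ∣ orderOf x ∧ ∃ u ∈ zpowers x, IsEl s u ∧ u ∉ center G := by
  generalize hN : orderOf x = N
  induction N using Nat.strong_induction_on generalizing x with
  | _ N ih =>
    have h1 : orderOf x ≠ 1 := fun h => hx (orderOf_eq_one_iff.1 h ▸ one_mem _)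
    obtain ⟨r, hr, hrd⟩ := Nat.exists_prime_and_dvd h1
    obtain ⟨v, hv, w, hw, e, hvr, hwr⟩ := exists_decomp x hr
    by_cases hvZ : v ∈ center G
    · have hwZ : w ∉ center G := fun h => hx (e ▸ mul_mem hvZ h)
      have hd : orderOf w ∣ orderOf x := orderOf_dvd_of_mem_zpowers hw
      have hlt : orderOf w < N := by
        rw [← hN]
        refine lt_of_le_of_ne (Nat.le_of_dvd (orderOf_pos x) hd) fun h => hwr (h ▸ hrd)
      obtain ⟨s, hs, hsd, u, hu, hus, huZ⟩ := ih _ hlt hwZ rfl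
      exact ⟨s, hs, hN ▸ hsd.trans hd, u, zpowers_le.2 hw hu, hus, huZ⟩
    · exact ⟨r, hr, hN ▸ hrd, v, hv, hvr, hvZ⟩

theorem kk_mul_idx (x : G) : kk x * idx x = (center G).index :=
  relIndex_mul_index (center_le_cl x)

theorem idx_dvd_center (x : G) : idx x ∣ (center G).index := index_dvd_of_le (center_le_cl x)

theorem kk_pos (x : G) : 0 < kk x := Nat.pos_of_ne_zero fun h => by
  have := kk_mul_idx x
  rw [h, zero_mul] at this
  exact index_ne_zero_of_finite this.symm

theorem cl_eq_of_le_of_idx {x y : G} (h : cl x ≤ cl y) (he : idx x = idx y) : cl x = cl y := by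
  by_contra hne
  exact (index_strictAnti (lt_of_le_of_ne h hne)).ne' he

theorem exists_sylow_le {r : ℕ} [Fact r.Prime] {H : Subgroup G} (h : ¬ r ∣ H.index) :
    ∃ R : Sylow r G, (R : Subgroup G) ≤ H := by
  obtain ⟨T⟩ : Nonempty (Sylow r H) := inferInstance
  have hidx : ¬ r ∣ ((T : Subgroup H).map H.subtype).index := by
    rw [index_map_subtype]
    exact fun h' => ((Fact.out : r.Prime).dvd_mul.1 h').elim T.not_dvd_index h
  exact ⟨(T.2.map H.subtype).toSylow hidx, map_subtype_le _⟩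

theorem sylow_idx_not_dvd {r : ℕ} [Fact r.Prime] {H : Subgroup G} (R : Sylow r G)
    (h : (R : Subgroup G) ≤ H) : ¬ r ∣ H.index :=
  fun hd => R.not_dvd_index (hd.trans (index_dvd_of_le h))

/-- An `r`-element centralizing a Sylow `r`-subgroup lies in it. -/
theorem mem_sylow_of_le_cl {r : ℕ} [Fact r.Prime] {v : G} (hv : IsEl r v) (Q : Sylow r G)
    (h : (Q : Subgroup G) ≤ cl v) : v ∈ (Q : Subgroup G) := by
  have hn : zpowers v ≤ normalizer ((Q : Subgroup G) : Set G) := by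
    rw [zpowers_le]
    refine mem_normalizer_iff.2 fun g => ⟨fun hg => ?_, fun hg => ?_⟩
    · rwa [← (mem_cl.1 (h hg)), mul_assoc, mul_inv_cancel, mul_one]
    · have := mem_cl.1 (h hg)
      have e : g = v * g * v⁻¹ := by
        calc g = v⁻¹ * (v * g * v⁻¹ * v) := by group
          _ = v⁻¹ * (v * (v * g * v⁻¹)) := by rw [this]
          _ = _ := by group
      rwa [e]
  have hp : IsPGroup r ↥(zpowers v ⊔ (Q : Subgroup G)) :=
    hv.isPGroup.to_sup_of_normal_right' Q.2 hn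
  exact (Q.3 hp le_sup_right) ▸ mem_sup_left (mem_zpowers v)

theorem exists_sylow_mem {r : ℕ} [Fact r.Prime] {v : G} (hv : IsEl r v) :
    ∃ R : Sylow r G, v ∈ (R : Subgroup G) := by
  obtain ⟨R, hR⟩ := hv.isPGroup.exists_le_sylow
  exact ⟨R, hR (mem_zpowers v)⟩

theorem sylow_eq_cj {r : ℕ} [Fact r.Prime] (R Q : Sylow r G) :
    ∃ g, (Q : Subgroup G) = cj g (R : Subgroup G) := by
  obtain ⟨g, rfl⟩ := MulAction.exists_smul_eq G R Q
  exact ⟨g, rfl⟩

/-- A subgroup containing the center with relative index divisible by `r` has a noncentral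
`r`-element. -/
theorem exists_el {r : ℕ} (hr : r.Prime) {H : Subgroup G} (hd : r ∣ (center G).relIndex H) :
    ∃ c ∈ H, IsEl r c ∧ c ∉ center G := by
  have : Fact r.Prime := ⟨hr⟩
  by_contra! hcon
  obtain ⟨T⟩ : Nonempty (Sylow r H) := inferInstance
  have hle : (T : Subgroup H) ≤ (center G).subgroupOf H := fun t ht =>
    mem_subgroupOf.2 (hcon t t.2 (IsEl.of_mem_pGroup (T.2.map H.subtype) (mem_map_of_mem _ ht)))
  exact T.not_dvd_index (hd.trans (index_dvd_of_le hle))

theorem dvd_relIndex {r : ℕ} (hr : r.Prime) {H : Subgroup G} {c : G} (hc : c ∈ H) (hcr : IsEl r c)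
    (hcZ : c ∉ center G) : r ∣ (center G).relIndex H := by
  by_contra hd
  have h1 : (⟨c, hc⟩ : H) ^ (center G).relIndex H ∈ (center G).subgroupOf H :=
    pow_index_mem _ _
  rw [mem_subgroupOf] at h1
  obtain ⟨k, hk⟩ := hcr
  have h2 : c ^ r ^ k ∈ center G := by
    rw [orderOf_dvd_iff_pow_eq_one.1 hk]
    exact one_mem _
  exact hcZ (zpow_mem_of_coprime h2 h1 ((hr.coprime_iff_not_dvd.2 hd).pow_left k))

namespace Hyp

variable {m n : ℕ}

theorem cases (h : Hyp G m n) (x : G) : idx x = 1 ∨ idx x = m ∨ idx x = m * n := by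
  have : idx x ∈ ({1, m, m * n} : Set ℕ) := h.range ▸ ⟨x, rfl⟩
  simpa using this

theorem noncentral (h : Hyp G m n) {x : G} (hx : x ∉ center G) : idx x = m ∨ idx x = m * n :=
  (h.cases x).resolve_left fun e => hx (idx_eq_one_iff.1 e)

theorem exists_m (h : Hyp G m n) : ∃ x : G, idx x = m := by
  have : m ∈ Set.range (fun x : G => (cl x).index) := h.range ▸ by simp
  exact this

theorem exists_mn (h : Hyp G m n) : ∃ x : G, idx x = m * n := by
  have : m * n ∈ Set.range (fun x : G => (cl x).index) := h.range ▸ by simp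
  exact this

theorem mn_gt (h : Hyp G m n) : m < m * n :=
  lt_mul_of_one_lt_right (by have := h.hm; omega) h.hn

theorem not_mem_center (h : Hyp G m n) {x : G} (hx : idx x = m ∨ idx x = m * n) :
    x ∉ center G := fun hc => by
  have := idx_eq_one_iff.2 hc
  have := h.hm; have := h.mn_gt
  omega

theorem dvd_mn (h : Hyp G m n) (x : G) : idx x ∣ m * n := by
  rcases h.cases x with e | e | e <;> rw [e]
  exacts [one_dvd _, dvd_mul_right _ _]

theorem m_dvd (h : Hyp G m n) {x : G} (hx : x ∉ center G) : m ∣ idx x := by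
  rcases h.noncentral hx with e | e <;> rw [e]
  exact dvd_mul_right _ _

theorem eq_of_le_m (h : Hyp G m n) {x y : G} (hle : cl x ≤ cl y) (hx : idx x = m)
    (hy : y ∉ center G) : cl x = cl y := by
  refine cl_eq_of_le_of_idx hle ?_
  have hd : idx y ∣ idx x := index_dvd_of_le hle
  rcases h.noncentral hy with e | e
  · rw [hx, e]
  · rw [hx, e] at hd
    have := Nat.le_of_dvd (by have := h.hm; omega) hd
    have := h.mn_gt
    omega

theorem eq_of_le_mn (h : Hyp G m n) {x y : G} (hle : cl x ≤ cl y) (hy : idx y = m * n) :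
    cl x = cl y :=
  cl_eq_of_le_of_idx hle (Nat.dvd_antisymm (hy ▸ h.dvd_mn x) (index_dvd_of_le hle))

theorem cl_le_of_commute (h : Hyp G m n) {x y : G} (hc : y ∈ cl x)
    (hco : (orderOf x).Coprime (orderOf y)) (hx : idx x = m * n) : cl x ≤ cl y := by
  have hle := cl_mul_le (mem_cl.1 hc).symm hco
  rw [← h.eq_of_le_mn (hle.trans inf_le_left) hx]
  exact hle.trans inf_le_right

theorem kk_eq (h : Hyp G m n) {x y : G} (he : idx x = idx y) : kk x = kk y := by
  have e1 := kk_mul_idx x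
  have e2 := kk_mul_idx y
  rw [he, ← e2] at e1
  exact Nat.eq_of_mul_eq_mul_right (Nat.pos_of_ne_zero index_ne_zero_of_finite) e1

theorem kk_m (h : Hyp G m n) {x y : G} (hx : idx x = m) (hy : idx y = m * n) :
    kk x = kk y * n := by
  have e1 := kk_mul_idx x
  rw [hx, ← kk_mul_idx y, hy] at e1
  exact Nat.eq_of_mul_eq_mul_right (by have := h.hm; omega) (e1.trans (by ring))

theorem dvd_center_index (h : Hyp G m n) {r : ℕ} (hr : r ∣ m * n) : r ∣ (center G).index := by
  obtain ⟨x, hx⟩ := h.exists_mn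
  exact hr.trans (hx ▸ idx_dvd_center x)

theorem exists_el_sylow (h : Hyp G m n) {r : ℕ} [hr : Fact r.Prime] (hd : r ∣ m * n)
    (R : Sylow r G) : ∃ v ∈ (R : Subgroup G), v ∉ center G := by
  by_contra! hcon
  exact R.not_dvd_index ((h.dvd_center_index hd).trans (index_dvd_of_le hcon))

/-- The covering argument. -/
theorem cover (h : Hyp G m n) {r : ℕ} (hr : r.Prime) {a0 : G} (ha0 : idx a0 = m)
    (hi : ∀ v : G, IsEl r v → idx v = m → ∃ g, cl v = cj g (cl a0))
    (hii : ∀ Q : Sylow r G, ∃ g, (Q : Subgroup G) ≤ cj g (cl a0))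
    (hiii : ∀ w : G, ¬ r ∣ orderOf w → ∃ c ∈ cl w, IsEl r c ∧ c ∉ center G) : False := by
  have : Fact r.Prime := ⟨hr⟩
  have hH : cl a0 ≠ ⊤ := fun e => by
    have := index_eq_one.2 e
    have := h.hm
    simp only [idx] at ha0
    omega
  obtain ⟨x, hx⟩ := Hall.TwoClass.exists_not_conj_mem hH
  have hx' : ∀ g, x ∉ cj g (cl a0) := fun g hg => hx g (mem_cj.1 hg)
  obtain ⟨v, hv, w, hw, e, hvr, hwr⟩ := exists_decomp x hr
  have key : ∀ c, c ∈ cl w → c ∈ cl v → IsEl r c → c ∉ center G →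
      (∀ g, c ∈ cj g (cl a0) → v ∈ cj g (cl a0)) → False := by
    intro c hcw hcv hcr hcZ hcvmem
    have hxc : x ∈ cl c := e ▸ mul_mem (mem_cl_comm hcv) (mem_cl_comm hcw)
    rcases h.noncentral hcZ with hc | hc
    · obtain ⟨g, hg⟩ := hi c hcr hc
      exact hx' g (hg ▸ hxc)
    · obtain ⟨Q, hQ⟩ := exists_sylow_mem hcr
      obtain ⟨g, hg⟩ := hii Q
      have hcw' := h.cl_le_of_commute (mem_cl_comm hcw) (hcr.coprime hr hwr) hc
      have ha : c ∈ cl (g * a0 * g⁻¹) := by rw [cl_cj]; exact hg hQ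
      have hwa : w ∈ cj g (cl a0) := by rw [← cl_cj]; exact mem_cl_comm (hcw' (mem_cl_comm ha))
      exact hx' g (e ▸ mul_mem (hcvmem g (hg hQ)) hwa)
  by_cases hvZ : v ∈ center G
  · obtain ⟨c, hc, hcr, hcZ⟩ := hiii w hwr
    refine key c hc (cl_eq_top hvZ ▸ mem_top c) hcr hcZ fun g _ => ?_
    rw [← cl_cj]
    exact center_le_cl _ hvZ
  · exact key v (mem_cl_of_mem_zpowers hv hw) (self_mem_cl v) hvr hvZ fun g h => h

end Hyp

end Fin

end Cfsg.Agent.Lib.ClassOMN
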