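import Mathlib
import Cfsg.Agent.Lib.ClassOMN.Basic
import Cfsg.Agent.S0065

/-!
Auxiliary facts on p-subgroups acting by conjugation.
-/

set_option autoImplicit false

namespace Cfsg.Agent.Lib.ClassOMN

open Subgroup

universe u

variable {G : Type u} [Group G]

theorem mem_normalizer_of_cj {g : G} {H : Subgroup G} (h : cj g H = H) :
    g ∈ normalizer (H : Set G) := by
  refine mem_normalizer_iff.2 fun x => ⟨fun hx => ?_, fun hx => ?_⟩
  · rw [← h, mem_cj]
    simpa [mul_assoc] using hx
  · rw [← h, mem_cj] at hx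
    simpa [mul_assoc] using hx

theorem cj_of_mem_normalizer {g : G} {H : Subgroup G} (h : g ∈ normalizer (H : Set G)) :
    cj g H = H := by
  ext x
  rw [mem_cj]
  have := mem_normalizer_iff.1 (inv_mem h) x
  rw [inv_inv] at this
  exact this.symm

theorem cj_of_mem {g : G} {H : Subgroup G} (h : g ∈ H) : cj g H = H :=
  cj_of_mem_normalizer (le_normalizer h)

theorem relIndex_center_cj (g : G) (H : Subgroup G) :
    (center G).relIndex (cj g H) = (center G).relIndex H := by
  conv_lhs => rw [← cj_center g]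
  exact relIndex_map_map_of_injective _ _ (MulEquiv.injective _)

section Fin

variable [Finite G]

/-- In a `s`-group `S` a normal subgroup not inside the center has an element which is central
of order `s` modulo the center. -/
theorem exists_y {s : ℕ} [hs : Fact s.Prime] {S A : Subgroup G} (hS : IsPGroup s S) (hAS : A ≤ S)
    (hAn : ∀ g ∈ S, ∀ a ∈ A, g * a * g⁻¹ ∈ A) (hA : ∃ a ∈ A, a ∉ center G) :
    ∃ d ∈ A, d ∉ center G ∧ d ^ s ∈ center G ∧ ∀ g ∈ S, g * d * g⁻¹ * d⁻¹ ∈ center G := by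
  classical
  let π := QuotientGroup.mk' (center G)
  have hπ : ∀ x : G, π x = 1 ↔ x ∈ center G := fun x => QuotientGroup.eq_one_iff x
  have hSp : IsPGroup s ↥(S.map π) := hS.map π
  have : Group.IsNilpotent ↥(S.map π) := hSp.isNilpotent
  let N := (A.map π).subgroupOf (S.map π)
  have hNn : N.Normal := by
    refine ⟨?_⟩
    rintro ⟨x, hx⟩ hxA ⟨q, g, hg, rfl⟩
    rw [mem_subgroupOf] at hxA ⊢
    obtain ⟨a, ha, rfl⟩ := hxA
    exact ⟨g * a * g⁻¹, hAn g hg a ha, by simp⟩
  obtain ⟨a, ha, haZ⟩ := hA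
  have hNb : N ≠ ⊥ := fun e => haZ ((hπ a).1 (by
    have : (⟨π a, mem_map_of_mem π (hAS ha)⟩ : S.map π) ∈ N := mem_subgroupOf.2 (mem_map_of_mem π ha)
    rw [e, mem_bot] at this
    exact congrArg Subtype.val this))
  obtain ⟨c, hc, hc1⟩ := (bot_or_exists_ne_one _).resolve_left
    (S0065.inf_center_ne_bot hNn hNb)
  obtain ⟨j, hj⟩ := IsPGroup.iff_orderOf.1 hSp c
  obtain ⟨i, rfl⟩ : ∃ i, j = i + 1 :=
    Nat.exists_eq_succ_of_ne_zero fun e => hc1 (orderOf_eq_one_iff.1 (by rw [hj, e, pow_zero]))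
  have hc' : c ^ s ^ i ≠ 1 := fun e => by
    have h1 := Nat.le_of_dvd (pow_pos hs.out.pos i) (orderOf_dvd_of_pow_eq_one e)
    rw [hj, pow_succ] at h1
    have := hs.out.two_le
    have := pow_pos hs.out.pos i
    nlinarith
  have hc's : (c ^ s ^ i) ^ s = 1 := by
    rw [← pow_mul, ← pow_succ, ← hj, pow_orderOf_eq_one]
  obtain ⟨hcN, hcC⟩ := mem_inf.1 (pow_mem hc (s ^ i))
  rw [mem_subgroupOf] at hcN
  obtain ⟨d, hd, hde⟩ := hcN
  refine ⟨d, hd, fun hdZ => hc' (Subtype.ext ?_), (hπ _).1 ?_, fun g hg => (hπ _).1 ?_⟩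
  · rw [← hde]; exact (hπ d).2 hdZ
  · rw [map_pow, hde, ← SubgroupClass.coe_pow, hc's, coe_one]
  · have e := congrArg Subtype.val (mem_center_iff.1 hcC ⟨π g, mem_map_of_mem π hg⟩)
    simp only [coe_mul, ← hde] at e
    simp only [map_mul, map_inv, e]
    group

/-- Semiregular action by conjugation outside a subgroup. -/
theorem semiregular_dvd (S C A B : Subgroup G) (hBA : B ≤ A)
    (hA : ∀ g ∈ S, ∀ a ∈ A, g * a * g⁻¹ ∈ A) (hB : ∀ g ∈ S, ∀ b ∈ B, g * b * g⁻¹ ∈ B)
    (hfix : ∀ g ∈ S, ∀ a ∈ A, a ∉ B → g * a = a * g → g ∈ C)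
    (htriv : ∀ g ∈ S, g ∈ C → ∀ a ∈ A, g * a = a * g) :
    C.relIndex S ∣ Nat.card A - Nat.card B := by
  classical
  let X := {a : G // a ∈ (A : Set G) \ (B : Set G)}
  letI : Fintype G := Fintype.ofFinite G
  letI : MulAction S X :=
    { smul := fun g x => ⟨g * x.1 * (g : G)⁻¹, hA g g.2 x.1 x.2.1, fun h => x.2.2 (by
        have := hB (g⁻¹ : S) (g⁻¹ : S).2 _ h
        simpa [mul_assoc] using this)⟩
      one_smul := fun x => Subtype.ext (show ((1 : S) : G) * x.1 * ((1 : S) : G)⁻¹ = x.1 by simp)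
      mul_smul := fun g h x => Subtype.ext (show ((g * h : S) : G) * x.1 * ((g * h : S) : G)⁻¹ =
        (g : G) * ((h : G) * x.1 * (h : G)⁻¹) * (g : G)⁻¹ by simp [mul_assoc]) }
  have hst : ∀ x : X, MulAction.stabilizer S x = C.subgroupOf S := fun x => by
    ext g
    rw [MulAction.mem_stabilizer_iff, mem_subgroupOf, Subtype.ext_iff]
    change (g : G) * x.1 * (g : G)⁻¹ = x.1 ↔ _
    rw [mul_inv_eq_iff_eq_mul]
    exact ⟨hfix g g.2 x.1 x.2.1 x.2.2, fun h => htriv g g.2 h x.1 x.2.1⟩
  have e := Nat.card_congr (MulAction.selfEquivSigmaOrbitsQuotientStabilizer S X)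
  have hdiv : C.relIndex S ∣ Nat.card X := by
    letI := Fintype.ofFinite (Quotient (MulAction.orbitRel S X))
    rw [e, Nat.card_sigma]
    refine Finset.dvd_sum fun ω _ => ?_
    rw [hst, ← index_eq_card]
    rfl
  have hX : Nat.card X = Nat.card A - Nat.card B := by
    have hd : ((A : Set G) \ (B : Set G)).ncard = (A : Set G).ncard - (B : Set G).ncard :=
      Set.ncard_sdiff (SetLike.coe_subset_coe.2 hBA) (Set.toFinite _)
    simp only [← Nat.card_coe_set_eq] at hd
    exact hd
  exact hX ▸ hdiv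

/-- The image of a Sylow subgroup modulo the center. -/
theorem relIndex_center_sylow {s : ℕ} [Fact s.Prime] {H : Subgroup G} (T : Sylow s H) :
    (center G).relIndex ((T : Subgroup H).map H.subtype) =
      s ^ ((center G).relIndex H).factorization s := by
  let N : Subgroup H := (center G).subgroupOf H
  rw [← relIndex_comap, show (center G).comap H.subtype = N from rfl, ← QuotientGroup.ker_mk' N,
    relIndex_ker]
  have e := (T.mapSurjective (QuotientGroup.mk'_surjective N)).card_eq_multiplicity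
  rw [show ((center G).relIndex H) = Nat.card (H ⧸ N) from index_eq_card _]
  exact e

/-- The index of a normalized subgroup inside the product with a Sylow subgroup. -/
theorem relIndex_sylow_eq {s : ℕ} [hs : Fact s.Prime] (S : Sylow s G) {K : Subgroup G}
    (hK : ∀ g ∈ (S : Subgroup G), cj g K = K) :
    K.relIndex S = s ^ K.index.factorization s := by
  have hn : (S : Subgroup G) ≤ normalizer (K : Set G) := fun g hg => mem_normalizer_of_cj (hK g hg)
  have e : K.relIndex ((S : Subgroup G) ⊔ K) * ((S : Subgroup G) ⊔ K).index = K.index :=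
    relIndex_mul_index le_sup_right
  have e2 : K.relIndex ((S : Subgroup G) ⊔ K) = K.relIndex S := by
    let L : Subgroup G := (S : Subgroup G) ⊔ K
    have : (K.subgroupOf L).Normal :=
      normal_subgroupOf_of_le_normalizer (sup_le hn le_normalizer)
    calc K.relIndex L = (K.subgroupOf L).relIndex (((S : Subgroup G).subgroupOf L) ⊔ K.subgroupOf L) := by
          rw [← subgroupOf_sup (A := (S : Subgroup G)) (A' := K) le_sup_left le_sup_right, relIndex_subgroupOf le_rfl]
      _ = (K.subgroupOf L).relIndex ((S : Subgroup G).subgroupOf L) := relIndex_sup_right _ _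
      _ = K.relIndex S := relIndex_subgroupOf le_sup_left
  rw [e2] at e
  obtain ⟨j, hj⟩ : ∃ j, K.relIndex S = s ^ j := S.2.index (K.subgroupOf S)
  have hnd : ¬ s ∣ ((S : Subgroup G) ⊔ K).index := sylow_idx_not_dvd S le_sup_left
  rw [← e, hj, Nat.factorization_mul (pow_ne_zero _ hs.out.ne_zero) index_ne_zero_of_finite]
  simp [hs.out.factorization_self, Nat.factorization_eq_zero_of_not_dvd hnd]

end Fin

end Cfsg.Agent.Lib.ClassOMN
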